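import Cfsg.Agent.Lib.AutPSU.Main

/-!
Two generators of the special unitary groups: the W-parts of the root elements in a subgroup,
and the criterion that all of them, with one element moving `e` to the line of `f`, give everything.
-/

set_option autoImplicit false

namespace Cfsg.Agent.Lib.Classical.UnitaryTwoGen

open Matrix Cfsg.Agent.Lib.AutPSU Cfsg.Agent.Lib.Forms

universe u

variable {n : ℕ} {F : Type u} [Field F] {q : ℕ}

/-- The action of a Levi element on the orthogonal space. -/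
def act (q : ℕ) (s : S n F q) (t : F) (x : Fin n → F) : Fin n → F := t ^ q • (mat s *ᵥ x)

theorem act_add (s : S n F q) (t : F) (x y : Fin n → F) : act q s t (x + y) = act q s t x + act q s t y := by
  rw [act, act, act, mulVec_add, smul_add]

theorem act_smul (s : S n F q) (t a : F) (x : Fin n → F) : act q s t (a • x) = a • act q s t x := by
  rw [act, act, mulVec_smul, smul_comm]

theorem act_sub (s : S n F q) (t : F) (x y : Fin n → F) : act q s t (x - y) = act q s t x - act q s t y := by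
  rw [act, act, act, mulVec_sub, smul_sub]

theorem levi_one {e f : Fin n → F} : IsLevi q e f (1 : S n F q) 1 :=
  ⟨one_ne_zero, by rw [mat_one, one_mulVec, one_smul], by rw [mat_one, one_mulVec, one_pow, inv_one, one_smul]⟩

theorem levi_mul {e f : Fin n → F} {a b : S n F q} {t t' : F} (ha : IsLevi q e f a t) (hb : IsLevi q e f b t') :
    IsLevi q e f (a * b) (t * t') := by
  refine ⟨mul_ne_zero ha.1 hb.1, ?_, ?_⟩
  · rw [mat_mul, ← mulVec_mulVec, hb.2.1, mulVec_smul, ha.2.1, smul_smul, mul_comm]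
  · rw [mat_mul, ← mulVec_mulVec, hb.2.2, mulVec_smul, ha.2.2, smul_smul, mul_pow, mul_inv, mul_comm]

theorem levi_inv {e f : Fin n → F} {a : S n F q} {t : F} (ha : IsLevi q e f a t) : IsLevi q e f a⁻¹ t⁻¹ := by
  refine ⟨inv_ne_zero ha.1, ?_, ?_⟩
  · have := mulVec_inv_cancel a e
    rw [ha.2.1, mulVec_smul] at this
    rw [← eq_inv_smul_iff₀ ha.1] at this
    exact this
  · have := mulVec_inv_cancel a f
    rw [ha.2.2, mulVec_smul] at this
    rw [← eq_inv_smul_iff₀ (inv_ne_zero (pow_ne_zero _ ha.1))] at this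
    rw [this, inv_pow]

variable [Fintype F] (hF : Fintype.card F = q ^ 2) {e f : Fin n → F} (HP : Pair q e f)
include hF HP

/-- A conjugate of a root element by a root element. -/
theorem U_conj {w x : Fin n → F} {cw c : F} (hw : InW q e f w) (hcw : Cond q w cw) (hx : InW q e f x)
    (hc : Cond q x c) :
    ∃ c', Cond q x c' ∧ U hF e w cw * U hF e x c * (U hF e w cw)⁻¹ = U hF e x c' := by
  have hsk : Skew q (hm q w x - hm q x w) := by
    unfold Skew
    rw [Herm.conj_sub hF, ← hm_swap hF w x, ← hm_swap hF x w]; ring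
  refine ⟨hm q w x - hm q x w + c, ?_, ?_⟩
  · have := (Cond.skew hF hsk).mul hF hc
    rwa [zero_add, hm_zero_right hF, sub_zero] at this
  · rw [U_comm hF HP hw hx hcw hc, ← U_zero_eq_T hF HP hsk, mul_assoc, mul_inv_cancel_right,
      U_mul hF HP (InW.zero e f) hx (Cond.skew hF hsk) hc, zero_add, hm_zero_right hF, sub_zero]

theorem U_inv {x : Fin n → F} {c : F} (hx : InW q e f x) (hc : Cond q x c) :
    ∃ c', Cond q (-x) c' ∧ (U hF e x c)⁻¹ = U hF e (-x) c' := by
  have hnn : hm q (-x) (-x) = hm q x x := by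
    rw [show -x = (-1 : F) • x from (neg_one_smul F x).symm, hm_smul_left', hm_smul_right,
      Herm.conj_neg hF, one_pow]
    ring
  have hc' : Cond q (-x) (-c - hm q x x) := by
    unfold Cond at *
    rw [Herm.conj_sub hF, Herm.conj_neg hF, hm_self_fixed hF, hnn]
    linear_combination -hc
  refine ⟨_, hc', inv_eq_of_mul_eq_one_right ?_⟩
  rw [U_mul hF HP hx (by simpa using (InW.zero (q := q) e f).sub hx) hc hc', add_neg_cancel]
  have e0 : c + (-c - hm q x x) - hm q (-x) x = 0 := by rw [hm_neg_left]; ring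
  rw [e0, U_zero_eq_T hF HP (Skew.zero hF), T_zero hF HP.ee]

/-- The W-parts of the root elements lying in `H`. -/
noncomputable def M (H : Subgroup (S n F q)) : AddSubgroup (Fin n → F) where
  carrier := {x | InW q e f x ∧ ∃ c, Cond q x c ∧ U hF e x c ∈ H}
  zero_mem' := ⟨InW.zero e f, 0, Cond.zero hF, by
    rw [U_zero_eq_T hF HP (Skew.zero hF), T_zero hF HP.ee]; exact one_mem H⟩
  add_mem' := by
    rintro x y ⟨hx, c, hc, hxH⟩ ⟨hy, d, hd, hyH⟩
    exact ⟨hx.add hy, _, hc.mul hF hd, by rw [← U_mul hF HP hx hy hc hd]; exact mul_mem hxH hyH⟩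
  neg_mem' := by
    rintro x ⟨hx, c, hc, hxH⟩
    obtain ⟨c', hc', e'⟩ := U_inv hF HP hx hc
    exact ⟨by simpa using (InW.zero (q := q) e f).sub hx, c', hc', e' ▸ inv_mem hxH⟩

variable {H : Subgroup (S n F q)}

/-- An element `U(w) · s` of `H` acts on `M` as `s`. -/
theorem act_mem {w : Fin n → F} {cw : F} (hw : InW q e f w) (hcw : Cond q w cw) {s : S n F q} {t : F}
    (hs : IsLevi q e f s t) (hmem : U hF e w cw * s ∈ H) {x : Fin n → F} (hx : x ∈ M hF HP H) :
    act q s t x ∈ M hF HP H := by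
  obtain ⟨hxW, c, hc, hxH⟩ := hx
  have h := mul_mem (mul_mem hmem hxH) (inv_mem hmem)
  rw [show U hF e w cw * s * U hF e x c * (U hF e w cw * s)⁻¹ =
    U hF e w cw * (s * U hF e x c * s⁻¹) * (U hF e w cw)⁻¹ by group, Levi_conj hF HP hs hxW hc] at h
  have hW : InW q e f (t ^ q • (mat s *ᵥ x)) := (Levi_map hF HP hs hxW).smul _
  obtain ⟨c', hc', e'⟩ := U_conj hF HP hw hcw hW (cond_smul hF HP (t := t) (s := s) hc)
  rw [e'] at h
  exact ⟨hW, c', hc', h⟩

theorem act_mem' {s : S n F q} {t : F} (hs : IsLevi q e f s t) (hmem : s ∈ H) {x : Fin n → F}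
    (hx : x ∈ M hF HP H) : act q s t x ∈ M hF HP H :=
  act_mem hF HP (InW.zero e f) (Cond.zero hF) hs
    (by rwa [U_zero_eq_T hF HP (Skew.zero hF), T_zero hF HP.ee, one_mul]) hx

/-- Moving a Levi element past a root element. -/
theorem levi_swap {A : S n F q} {t : F} (hA : IsLevi q e f A t) {x : Fin n → F} {c : F} (hx : InW q e f x)
    (hc : Cond q x c) :
    ∃ c', Cond q (act q A t x) c' ∧ InW q e f (act q A t x) ∧ A * U hF e x c = U hF e (act q A t x) c' * A := by
  refine ⟨_, cond_smul hF HP (t := t) (s := A) hc, (Levi_map hF HP hA hx).smul _, ?_⟩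
  rw [act, ← Levi_conj hF HP hA hx hc]
  group

/-- The commutator of two elements over commuting Levi elements. -/
theorem comm_mem {A B : S n F q} {tA tB : F} (hA : IsLevi q e f A tA) (hB : IsLevi q e f B tB)
    (hAB : Commute A B) {a b : Fin n → F} {ca cb : F} (ha : InW q e f a) (hca : Cond q a ca)
    (hb : InW q e f b) (hcb : Cond q b cb) (hAH : U hF e a ca * A ∈ H) (hBH : U hF e b cb * B ∈ H) :
    a + act q A tA b - (b + act q B tB a) ∈ M hF HP H := by
  have h := mul_mem (mul_mem hAH hBH) (inv_mem (mul_mem hBH hAH))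
  obtain ⟨c1, hc1, hW1, e1⟩ := levi_swap hF HP hA hb hcb
  obtain ⟨c2, hc2, hW2, e2⟩ := levi_swap hF HP hB ha hca
  have eL : U hF e a ca * A * (U hF e b cb * B) = U hF e (a + act q A tA b) (ca + c1 - hm q (act q A tA b) a) * (A * B) := by
    rw [← U_mul hF HP ha hW1 hca hc1, mul_assoc (U hF e a ca), ← mul_assoc A, e1]
    group
  have eR : U hF e b cb * B * (U hF e a ca * A) = U hF e (b + act q B tB a) (cb + c2 - hm q (act q B tB a) b) * (B * A) := by
    rw [← U_mul hF HP hb hW2 hcb hc2, mul_assoc (U hF e b cb), ← mul_assoc B, e2]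
    group
  rw [eL, eR, hAB.eq] at h
  have hW3 := hb.add hW2
  have hc3 := hcb.mul hF hc2
  obtain ⟨c4, hc4, e4⟩ := U_inv hF HP hW3 hc3
  rw [show ∀ (x y z : S n F q), x * z * (y * z)⁻¹ = x * y⁻¹ from fun x y z => by group, e4,
    U_mul hF HP (ha.add hW1) (by simpa using (InW.zero (q := q) e f).sub hW3) (hca.mul hF hc1) hc4] at h
  rw [sub_eq_add_neg]
  exact ⟨(ha.add hW1).add (by simpa using (InW.zero (q := q) e f).sub hW3), _,
    (hca.mul hF hc1).mul hF hc4, h⟩

/-- All W-parts and an element taking `e` to the line of `f` give the whole group. -/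
theorem top_of_all (h32 : 3 ≤ q ∨ n ≠ 3) {y : Fin n → F} (hy : InW q e f y) (hy1 : hm q y y = 1)
    (hM : ∀ x, InW q e f x → x ∈ M hF HP H) {w : Fin n → F} {cw : F} (hw : InW q e f w) (hcw : Cond q w cw)
    {g : S n F q} (hg : U hF e w cw * g ∈ H) {μ : F} (hμ : μ ≠ 0) (hge : mat g *ᵥ e = μ • f) : H = ⊤ := by
  obtain ⟨κ, hκ0, hκ⟩ := exists_skew_ne_zero hF
  obtain ⟨θ, hθ⟩ := UnitaryConj.exists_moved hF
  have hne : θ ^ q - θ ≠ 0 := sub_ne_zero.2 hθ
  have hZ : ∀ k, Skew q k → T hF e k ∈ H := by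
    intro k hk
    set r := k / (θ ^ q - θ) with hr
    have hrf : r ^ q = r := by
      have hkq : k ^ q = -k := by unfold Skew at hk; linear_combination hk
      have hne' : θ - θ ^ q ≠ 0 := sub_ne_zero.2 (Ne.symm hθ)
      rw [hr, div_pow, Herm.conj_sub hF, Herm.conj_conj hF, hkq]
      field_simp
      ring
    set z := (r * θ) • y
    have hz : InW q e f z := hy.smul _
    obtain ⟨-, c, hc, hyH⟩ := hM y hy
    obtain ⟨-, d, hd, hzH⟩ := hM z hz
    have hval : hm q y z - hm q z y = k := by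
      rw [hm_smul_right, hm_smul_left', hy1, mul_one, mul_one, mul_pow, hrf, ← mul_sub,
        div_mul_cancel₀ _ hne]
    have h := mul_mem (mul_mem hyH hzH) (inv_mem (mul_mem hzH hyH))
    rw [U_comm hF HP hy hz hc hd, hval, mul_inv_cancel_right] at h
    exact h
  have hQ : ∀ x c, InW q e f x → Cond q x c → U hF e x c ∈ H := by
    intro x c hx hc
    obtain ⟨-, c', hc', hxH⟩ := hM x hx
    have hk : Skew q (c - c') := by
      unfold Skew Cond at *
      rw [Herm.conj_sub hF]
      linear_combination hc - hc'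
    have := mul_mem hxH (U_zero_eq_T hF HP hk ▸ hZ _ hk)
    rw [U_mul hF HP hx (InW.zero e f) hc' (Cond.skew hF hk), add_zero, hm_zero_left, sub_zero,
      add_sub_cancel] at this
    exact this
  have hg' : g ∈ H := by simpa using mul_mem (inv_mem (hQ w cw hw hcw)) hg
  have hTf : ∀ k, Skew q k → T hF f k ∈ H := by
    intro k hk
    have hμ2 : μ * μ ^ q ≠ 0 := mul_ne_zero hμ (pow_ne_zero _ hμ)
    have hk' : Skew q (k * (μ * μ ^ q)⁻¹) := hk.mul_fixed (by rw [inv_pow, norm_fixed' hF])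
    have := mul_mem (mul_mem hg' (hZ _ hk')) (inv_mem hg')
    rwa [T_conj hF HP.ee hk', hge, T_smul hF HP.ff _ hk', inv_mul_cancel_right₀ hμ2] at this
  have hE : E hF e f κ ∈ H :=
    mul_mem (mul_mem (hZ _ hκ) (hTf _ (skew_neg_inv hF hκ))) (hZ _ hκ)
  rw [eq_top_iff, ← UE_eq_top hF HP h32 hκ hκ0, UE, Subgroup.closure_le]
  rintro z (⟨x, c, hx, hc, rfl⟩ | rfl)
  exacts [hQ x c hx hc, hE]

end Cfsg.Agent.Lib.Classical.UnitaryTwoGen
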