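import Cfsg.Agent.Lib.Classical.QuadOmega.TwoGenTau
import Cfsg.Agent.Lib.Classical.HermField

/-!
Scalars of a field with `q ^ 2` elements used for the two generators of the unitary groups.
-/

set_option autoImplicit false

namespace Cfsg.Agent.Lib.Classical.UnitaryTwoGen

variable {F : Type*} [Field F] [Fintype F] {q : ℕ}

theorem exists_prim (hF : Fintype.card F = q ^ 2) :
    ∃ ω : Fˣ, orderOf ω = (q + 1) * (q - 1) ∧ ∀ u : Fˣ, ∃ i : ℕ, ω ^ i = u := by
  obtain ⟨ω, hω⟩ := IsCyclic.exists_monoid_generator (α := Fˣ)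
  refine ⟨ω, ?_, fun u => (Submonoid.mem_powers_iff _ _).1 (hω u)⟩
  rw [← Herm.card_units hF]
  exact orderOf_eq_card_of_forall_mem_zpowers fun u => mem_powers_iff_mem_zpowers.1 (hω u)

/-- `ω ^ (q - 1)` lies in no proper subring. -/
theorem subring_eq_top (hF : Fintype.card F = q ^ 2) {ω : Fˣ} (hω : orderOf ω = (q + 1) * (q - 1))
    (hgen : ∀ u : Fˣ, ∃ i : ℕ, ω ^ i = u) (K : Subring F) (h : ((ω ^ (q - 1) : Fˣ) : F) ∈ K) : K = ⊤ := by
  classical
  have hq := Herm.two_le_q hF
  by_cases hK : (ω : F) ∈ K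
  · exact QuadOmega.TwoGen.subring_eq_top_of_gen (fun u => (Submonoid.mem_powers_iff _ _).2 (hgen u)) K hK
  exfalso
  have hinv : ∀ x ∈ K, x⁻¹ ∈ K := fun x hx => by
    rcases eq_or_ne x 0 with rfl | hx0
    · simp
    have h2 : 2 ≤ Fintype.card F := Fintype.one_lt_card
    have := FiniteField.pow_card_sub_one_eq_one x hx0
    rw [inv_eq_of_mul_eq_one_left (show x ^ (Fintype.card F - 2) * x = 1 by
      rw [← pow_succ, show Fintype.card F - 2 + 1 = Fintype.card F - 1 by omega, this])]
    exact pow_mem hx _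
  have hr : Fintype.card K * Fintype.card K ≤ q ^ 2 := by
    rw [← hF, ← Fintype.card_prod]
    refine Fintype.card_le_of_injective (fun p : K × K => (p.1 : F) + (p.2 : F) * (ω : F)) fun p p' e => ?_
    by_cases hb : (p.2 : F) = p'.2
    · simp only [hb, add_left_inj] at e
      exact Prod.ext (Subtype.ext e) (Subtype.ext hb)
    · refine absurd ?_ hK
      have e' : (ω : F) = ((p.1 : F) - p'.1) * ((p'.2 : F) - p.2)⁻¹ := by
        rw [eq_mul_inv_iff_mul_eq₀ (sub_ne_zero.2 fun h => hb h.symm)]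
        linear_combination -e
      rw [e']
      exact K.mul_mem (sub_mem p.1.2 p'.1.2) (hinv _ (sub_mem p'.2.2 p.2.2))
  have hqK : q + 2 ≤ Fintype.card K := by
    set δ := ω ^ (q - 1)
    have hinj : Set.InjOn (fun i => ω ^ ((q - 1) * i)) (Set.Iio (q + 1)) := by
      intro i hi j hj e
      have key : ∀ {k : ℕ}, k < q + 1 → (q - 1) * k < orderOf ω := fun {k} hk => by
        rw [hω, mul_comm (q + 1)]
        exact Nat.mul_lt_mul_of_pos_left hk (by omega)
      exact Nat.eq_of_mul_eq_mul_left (by omega) (pow_injOn_Iio_orderOf (key hi) (key hj) e)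
    let φ : Option (Fin (q + 1)) → K := fun o => o.elim 0 fun i => ⟨((δ ^ (i : ℕ) : Fˣ) : F), by
      rw [Units.val_pow_eq_pow_val]; exact pow_mem h _⟩
    have := Fintype.card_le_of_injective φ (by
      rintro (_ | i) (_ | j) e <;> simp only [φ, Option.elim, Subtype.ext_iff, ZeroMemClass.coe_zero] at e
      · rfl
      · exact absurd e.symm (Units.ne_zero _)
      · exact absurd e (Units.ne_zero _)
      · congr 1
        refine Fin.ext (hinj i.isLt j.isLt ?_)
        have := Units.ext (u := δ ^ (i : ℕ)) (v := δ ^ (j : ℕ)) e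
        simpa only [δ, ← pow_mul] using this)
    rw [Fintype.card_option, Fintype.card_fin] at this
    omega
  nlinarith

end Cfsg.Agent.Lib.Classical.UnitaryTwoGen
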