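import Cfsg.Agent.Lib.Classical.UnitaryTwoGen.Basic
import Cfsg.Agent.Lib.Classical.UnitaryTwoGen.Scalars

/-!
Two generators of `SU_n`: a signed cycle on the orthogonal space of a hyperbolic pair (or, in
dimensions three and four, a torus element) and a root element times an element moving `e` to the
line of `f`.
-/

set_option autoImplicit false

namespace Cfsg.Agent.Lib.Classical.UnitaryTwoGen

open Matrix Cfsg.Agent.Lib.AutPSU Cfsg.Agent.Lib.Forms

universe u

variable {n : ℕ} {F : Type u} [Field F] {q : ℕ} [Fintype F] (hF : Fintype.card F = q ^ 2)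
  {e f : Fin n → F} (HP : Pair q e f)

include hF HP

/-- An element dilating the pair and one unit vector. -/
theorem exists_torus {y : Fin n → F} (hy : InW q e f y) (hy1 : hm q y y = 1) {t : F} (ht : t ≠ 0) :
    ∃ s : S n F q, IsLevi q e f s t ∧ mat s *ᵥ y = (t ^ q * t⁻¹) • y ∧
      ∀ z, InW q e f z → hm q z y = 0 → mat s *ᵥ z = z := by
  obtain ⟨M, hMd, hMi, hM⟩ := pairDil hF HP ht
  obtain ⟨N, hNd, hNi, hN⟩ := normDil hF hy1 (l := t ^ q * t⁻¹) (by
    rw [mul_pow, Herm.conj_conj hF, inv_pow]; field_simp)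
  have hdet : (M * N).det = 1 := by
    rw [det_mul, hMd, hNd]
    field_simp
  have hiso : ∀ z w, hm q ((M * N) *ᵥ z) ((M * N) *ᵥ w) = hm q z w := fun z w => by
    rw [← mulVec_mulVec, ← mulVec_mulVec, hMi, hNi]
  refine ⟨⟨⟨_, hdet⟩, hiso⟩, ⟨ht, ?_, ?_⟩, ?_, fun z hz hzy => ?_⟩
  all_goals show (M * N) *ᵥ _ = _
  rotate_left 3
  · rw [← mulVec_mulVec, hN, hM, hzy]
    simp [hm_add_left, hm_smul_left', hz.1, hz.2]
  all_goals
    simp only [← mulVec_mulVec, hN, hM, hm_add_left, hm_smul_left', HP.ee, HP.ff, HP.ef, HP.fe, hy1, hy.1, hy.2,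
      (hy.swap hF).1, (hy.swap hF).2]
    match_scalars <;> field_simp <;> ring

/-- Elements diagonal on the pair commute if they commute on the orthogonal space. -/
theorem commute_of_eigen {a b : S n F q} {αe αf βe βf : F} (hae : mat a *ᵥ e = αe • e) (haf : mat a *ᵥ f = αf • f)
    (hbe : mat b *ᵥ e = βe • e) (hbf : mat b *ᵥ f = βf • f)
    (hW : ∀ x, InW q e f x → mat a *ᵥ (mat b *ᵥ x) = mat b *ᵥ (mat a *ᵥ x)) : Commute a b := by
  refine vec_ext fun x => ?_
  rw [mat_mul, mat_mul, ← mulVec_mulVec, ← mulVec_mulVec]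
  have key := decomp (q := q) e f x
  rw [key]
  simp only [mulVec_add, mulVec_smul, hae, haf, hbe, hbf, hW _ (proj_mem HP x), smul_smul]
  module

omit hF HP in
/-- The line of `y` lies in `M` once an invariant scaling and one element are found. -/
theorem line_of_gen {M' : AddSubgroup (Fin n → F)} {y : Fin n → F} {ρ γ : F} (hγ : γ ≠ 0) (hm' : γ • y ∈ M')
    (hρ : ∀ a : F, a • y ∈ M' → (ρ * a) • y ∈ M')
    (hgen : ∀ N : AddSubgroup F, (1 : F) ∈ N → (∀ a ∈ N, ρ * a ∈ N) → N = ⊤) (a : F) : a • y ∈ M' := by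
  let N : AddSubgroup F :=
    { carrier := {a | (a * γ) • y ∈ M'}
      add_mem' := fun {a b} ha hb => by
        show ((a + b) * γ) • y ∈ M'
        rw [add_mul, add_smul]
        exact add_mem ha hb
      zero_mem' := by show ((0 : F) * γ) • y ∈ M'; rw [zero_mul, zero_smul]; exact zero_mem M'
      neg_mem' := fun {a} ha => by show ((-a) * γ) • y ∈ M'; rw [neg_mul, neg_smul]; exact neg_mem ha }
  have hN := hgen N (by show ((1 : F) * γ) • y ∈ M'; rwa [one_mul]) fun a ha => by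
    show ((ρ * a) * γ) • y ∈ M'
    rw [mul_assoc]
    exact hρ _ ha
  have : a / γ ∈ N := by rw [hN]; trivial
  change (a / γ * γ) • y ∈ M' at this
  rwa [div_mul_cancel₀ _ hγ] at this

section big

open Fin.NatCast

variable {k : ℕ} {y : Fin (k + 3) → (Fin n → F)}

/-- Dimension at least five. -/
theorem gen_big (h32 : 3 ≤ q ∨ n ≠ 3) (hy : ∀ i, InW q e f (y i))
    (hon : ∀ i j, hm q (y i) (y j) = if i = j then 1 else 0)
    (hspan : ∀ x, InW q e f x → x = ∑ i, hm q x (y i) • y i)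
    {s : S n F q} (hs : IsLevi q e f s 1) {c : Fin (k + 3) → F} (hc : ∀ i, c i ≠ 0)
    (hsy : ∀ i, mat s *ᵥ y i = c i • y (i + 1)) :
    ∃ a b : S n F q, Subgroup.closure ({a, b} : Set (S n F q)) = ⊤ := by
  obtain ⟨κ, hκ0, hκ⟩ := exists_skew_ne_zero hF
  obtain ⟨ω, hω, hgen⟩ := exists_prim hF
  have hq := Herm.two_le_q hF
  have hω0 : (ω : F) ≠ 0 := ω.ne_zero
  set δ : F := ((ω ^ (q - 1) : Fˣ) : F) with hδdef
  have hδ0 : δ ≠ 0 := Units.ne_zero _
  have hδ1 : δ ≠ 1 := fun h => by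
    have h1 : ω ^ (q - 1) = 1 := Units.ext (by rw [← hδdef, h, Units.val_one])
    have := Nat.le_of_dvd (by omega) (hω ▸ orderOf_dvd_of_pow_eq_one h1)
    have : 2 * (q - 1) ≤ (q + 1) * (q - 1) := Nat.mul_le_mul_right _ (by omega)
    omega
  obtain ⟨h, hh, hhy, hhz⟩ := exists_torus hF HP (hy 0) (by rw [hon, if_pos rfl]) hω0
  have hδ : (ω : F) ^ q * (ω : F)⁻¹ = δ := by
    rw [hδdef, Units.val_pow_eq_pow_val, mul_inv_eq_iff_eq_mul₀ hω0, ← pow_succ]
    congr 1; omega
  set g := E hF e f κ * h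
  have hge : mat g *ᵥ e = ((ω : F) * -κ⁻¹) • f := by
    rw [mat_mul, ← mulVec_mulVec, hh.2.1, mulVec_smul, E_apply_e hF HP hκ hκ0, smul_smul]
  have hgf : mat g *ᵥ f = (((ω : F) ^ q)⁻¹ * κ) • e := by
    rw [mat_mul, ← mulVec_mulVec, hh.2.2, mulVec_smul, E_apply_f hF HP hκ hκ0, smul_smul]
  set d : Fin (k + 3) → F := fun i => if i = 0 then δ else 1 with hd
  have hd0 : ∀ i, d i ≠ 0 := fun i => by simp only [hd]; split_ifs <;> [exact hδ0; exact one_ne_zero]
  have hgy : ∀ i, mat g *ᵥ y i = d i • y i := fun i => by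
    simp only [hd]
    split_ifs with hi
    · subst hi
      rw [mat_mul, ← mulVec_mulVec, hhy, hδ, mulVec_smul, E_apply_w hF HP hκ hκ0 (hy 0)]
    · rw [mat_mul, ← mulVec_mulVec, hhz _ (hy i) (by rw [hon, if_neg hi]), E_apply_w hF HP hκ hκ0 (hy i), one_smul]
  set s' := g * s * g⁻¹
  have s'g : ∀ x, mat s' *ᵥ (mat g *ᵥ x) = mat g *ᵥ (mat s *ᵥ x) := fun x => by
    rw [mulVec_mulVec, ← mat_mul, inv_mul_cancel_right, mat_mul, ← mulVec_mulVec]
  have hμe : ((ω : F) * -κ⁻¹) ≠ 0 := mul_ne_zero hω0 (neg_ne_zero.2 (inv_ne_zero hκ0))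
  have hμf : ((ω : F) ^ q)⁻¹ * κ ≠ 0 := mul_ne_zero (inv_ne_zero (pow_ne_zero _ hω0)) hκ0
  have hs' : IsLevi q e f s' 1 := by
    refine ⟨one_ne_zero, ?_, ?_⟩
    · have := s'g f
      rw [hs.2.2, one_pow, inv_one, one_smul, hgf, mulVec_smul] at this
      rw [one_smul]
      exact smul_right_injective _ hμf this
    · have := s'g e
      rw [hs.2.1, one_smul, hge, mulVec_smul] at this
      rw [one_pow, inv_one, one_smul]
      exact smul_right_injective _ hμe this
  have hs'y : ∀ i, mat s' *ᵥ y i = (c i * d (i + 1) / d i) • y (i + 1) := fun i => by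
    have := s'g (y i)
    rw [hsy, mulVec_smul, hgy, hgy, mulVec_smul, smul_smul] at this
    rw [← eq_inv_smul_iff₀ (hd0 i), smul_smul] at this
    rw [this]
    congr 1
    field_simp
  set R := s' * s⁻¹
  have hR : IsLevi q e f R 1 := by simpa using levi_mul hs' (levi_inv hs)
  have hinv : ∀ i, mat s⁻¹ *ᵥ y (i + 1) = (c i)⁻¹ • y i := fun i => by
    have := mulVec_inv_cancel s (y i)
    rw [hsy, mulVec_smul] at this
    rwa [eq_inv_smul_iff₀ (hc i)]
  set ρ : Fin (k + 3) → F := fun i => d i / d (i - 1) with hρ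
  have hRy : ∀ i, mat R *ᵥ y i = ρ i • y i := fun i => by
    have e1 : i = i - 1 + 1 := (sub_add_cancel i 1).symm
    rw [mat_mul, ← mulVec_mulVec]
    conv_lhs => rw [e1, hinv, mulVec_smul, hs'y, ← e1, smul_smul]
    congr 1
    simp only [hρ]
    have := hc (i - 1)
    field_simp
  set R1 := s * R * s⁻¹
  have hR1 : IsLevi q e f R1 1 := by simpa using levi_mul (levi_mul hs hR) (levi_inv hs)
  have hR1y : ∀ i, mat R1 *ᵥ y i = ρ (i - 1) • y i := fun i => by
    have e1 : i = i - 1 + 1 := (sub_add_cancel i 1).symm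
    rw [mat_mul, mat_mul, ← mulVec_mulVec, ← mulVec_mulVec]
    conv_lhs => rw [e1, hinv, mulVec_smul, hRy, smul_smul, mulVec_smul, hsy, ← e1, smul_smul]
    congr 1
    have := hc (i - 1)
    field_simp
  have hcomm : Commute R R1 := by
    refine commute_of_eigen hF HP hR.2.1 hR.2.2 hR1.2.1 hR1.2.2 fun x hx => ?_
    rw [hspan x hx]
    simp only [mulVec_sum, mulVec_smul, hRy, hR1y, smul_smul]
    exact Finset.sum_congr rfl fun i _ => by rw [mul_assoc, mul_assoc, mul_comm (ρ i)]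
  set i0 : Fin (k + 3) := Fin.last (k + 2) with hi0
  have hi1 : i0 + 1 = 0 := Fin.last_add_one _
  obtain ⟨c0, hc0⟩ := exists_cond hF (y i0)
  refine ⟨s, U hF e (y i0) c0 * g, ?_⟩
  set H := Subgroup.closure ({s, U hF e (y i0) c0 * g} : Set (S n F q))
  have hsH : s ∈ H := Subgroup.subset_closure (Set.mem_insert _ _)
  have hbH : U hF e (y i0) c0 * g ∈ H := Subgroup.subset_closure (Set.mem_insert_of_mem _ rfl)
  -- `U(w) R`
  obtain ⟨ci, hci, ei⟩ := U_inv hF HP (hy i0) hc0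
  have hny : InW q e f (-y i0) := by simpa using (InW.zero (q := q) e f).sub (hy i0)
  obtain ⟨c2, hc2, hW2, e2⟩ := levi_swap hF HP hs' hny hci
  set w := y i0 + act q s' 1 (-y i0) with hwdef
  have hw : InW q e f w := (hy i0).add hW2
  obtain ⟨cw, hcw, ew⟩ : ∃ cw, Cond q w cw ∧ U hF e w cw * R ∈ H := by
    refine ⟨_, hc0.mul hF hc2, ?_⟩
    rw [← U_mul hF HP (hy i0) hW2 hc0 hc2]
    have hh := mul_mem (mul_mem (mul_mem hbH hsH) (inv_mem hbH)) (inv_mem hsH)
    rw [show U hF e (y i0) c0 * g * s * (U hF e (y i0) c0 * g)⁻¹ * s⁻¹ =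
      U hF e (y i0) c0 * (s' * (U hF e (y i0) c0)⁻¹) * s⁻¹ by simp only [s']; group, ei, e2] at hh
    rwa [show ∀ a b : S n F q, a * (b * s') * s⁻¹ = a * b * (s' * s⁻¹) from fun a b => by group] at hh
  have h1 : U hF e (act q s 1 w) (1 * 1 ^ q * cw) * R1 ∈ H := by
    have := mul_mem (mul_mem hsH ew) (inv_mem hsH)
    rwa [show s * (U hF e w cw * R) * s⁻¹ = s * U hF e w cw * s⁻¹ * R1 by simp only [R1]; group, Levi_conj hF HP hs hw hcw] at this
  have hx1 := comm_mem hF HP hR hR1 hcomm hw hcw ((Levi_map hF HP hs hw).smul _)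
    (cond_smul hF HP (t := (1 : F)) (s := s) hcw) ew h1
  have actR : ∀ (a : F) i, act q R 1 (a • y i) = (ρ i * a) • y i := fun a i => by
    rw [act, one_pow, one_smul, mulVec_smul, hRy, smul_smul, mul_comm]
  have actR1 : ∀ (a : F) i, act q R1 1 (a • y i) = (ρ (i - 1) * a) • y i := fun a i => by
    rw [act, one_pow, one_smul, mulVec_smul, hR1y, smul_smul, mul_comm]
  have actS : ∀ (a : F) i, act q s 1 (a • y i) = (c i * a) • y (i + 1) := fun a i => by
    rw [act, one_pow, one_smul, mulVec_smul, hsy, smul_smul, mul_comm]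
  set α : F := c i0 * d (i0 + 1) / d i0 with hα
  have hw' : w = (1 : F) • y i0 + (-α) • y (i0 + 1) := by
    rw [hwdef, act, one_pow, one_smul, mulVec_neg, hs'y, one_smul, neg_smul, ← hα]
  have hlt : ∀ j, j < k + 3 → ((j : Fin (k + 3)) : ℕ) = j := fun j hj => by
    rw [Fin.val_natCast, Nat.mod_eq_of_lt hj]
  have v0 : ((0 : Fin (k + 3)) : ℕ) = 0 := rfl
  have v1 : ((1 : Fin (k + 3)) : ℕ) = 1 := by simpa using hlt 1 (by omega)
  have v2 : ((2 : Fin (k + 3)) : ℕ) = 2 := by simpa using hlt 2 (by omega)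
  have n10 : (1 : Fin (k + 3)) ≠ 0 := fun h => by have := congrArg Fin.val h; rw [v1, v0] at this; omega
  have n20 : (2 : Fin (k + 3)) ≠ 0 := fun h => by have := congrArg Fin.val h; rw [v2, v0] at this; omega
  have nl0 : i0 ≠ 0 := fun h => by have := congrArg Fin.val h; simp [hi0] at this
  have i0eq : i0 = -1 := eq_neg_of_add_eq_zero_left hi1
  have ρ0 : ρ 0 = δ := by
    simp only [hρ, hd, if_pos, zero_sub, ← i0eq, if_neg nl0, div_one]
  have ρ1 : ρ 1 = δ⁻¹ := by
    simp only [hρ, hd, sub_self, if_pos, if_neg n10, one_div]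
  have ρ2 : ρ 2 = 1 := by
    have e : (2 : Fin (k + 3)) - 1 = 1 := by
      rw [sub_eq_iff_eq_add]; exact Fin.ext (by simp [Fin.val_add, v2, v1, Nat.mod_eq_of_lt])
    simp only [hρ, hd, e, if_neg n20, if_neg n10, div_one]
  have ρl : ρ i0 = 1 := by
    have hne : i0 - 1 ≠ 0 := fun h => by
      rw [sub_eq_zero] at h
      have := congrArg Fin.val h
      rw [v1] at this
      simp [hi0] at this
    simp only [hρ, hd, if_neg nl0, if_neg hne, div_one]
  -- components
  set A := -((1 : F) - ρ 0) * c i0 with hA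
  obtain ⟨K, B, hx⟩ : ∃ K B : F, w + act q R 1 (act q s 1 w) - (act q s 1 w + act q R1 1 w) =
      K • y i0 + A • y 0 + B • y 1 := by
    refine ⟨1 - ρ (i0 - 1), (ρ 1 - 1) * (c 0 * -α), ?_⟩
    rw [hw', act_add, act_add (R : S n F q), act_add R1, actS, actS, actR, actR, actR1, actR1, hi1, zero_add,
      zero_sub, ← i0eq, ρl, hA, mul_one, one_mul]
    module
  replace hx1 : w + act q R 1 (act q s 1 w) - (act q s 1 w + act q R1 1 w) ∈ M hF HP H := hx1
  rw [hx] at hx1
  have hRH : ∀ x ∈ M hF HP H, act q R 1 x ∈ M hF HP H := fun x hx => act_mem hF HP hw hcw hR ew hx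
  have hSH : ∀ x ∈ M hF HP H, act q s 1 x ∈ M hF HP H := fun x hx => act_mem' hF HP hs hsH hx
  have h2 := sub_mem (hRH _ hx1) hx1
  rw [act_add, act_add, actR, actR, actR, ρl, one_mul] at h2
  have h3 := hSH _ (show (((ρ 0 - 1) * A) • y 0 + ((ρ 1 - 1) * B) • y 1) ∈ M hF HP H by
    convert h2 using 1; module)
  rw [act_add, actS, actS, zero_add] at h3
  have h11 : (1 : Fin (k + 3)) + 1 = 2 := Fin.ext (by simp [Fin.val_add, v2, v1, Nat.mod_eq_of_lt])
  rw [h11] at h3
  have h4 := sub_mem (hRH _ h3) h3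
  rw [act_add, actR, actR, ρ2, one_mul] at h4
  have h5 : ((ρ 1 - 1) * (c 0 * ((ρ 0 - 1) * A))) • y 1 ∈ M hF HP H := by convert h4 using 1; module
  have hne : (ρ 1 - 1) * (c 0 * ((ρ 0 - 1) * A)) ≠ 0 := by
    rw [hA, ρ0, ρ1]
    refine mul_ne_zero (sub_ne_zero.2 fun h => hδ1 (inv_eq_one.1 h)) (mul_ne_zero (hc 0)
      (mul_ne_zero (sub_ne_zero.2 hδ1) (mul_ne_zero (neg_ne_zero.2 (sub_ne_zero.2 (Ne.symm hδ1))) (hc i0))))
  have hline1 : ∀ a : F, a • y 1 ∈ M hF HP H := by
    refine line_of_gen hne h5 (ρ := ρ 1) (fun a ha => by rw [← actR]; exact hRH _ ha) fun N hN1 hNρ => ?_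
    refine QuadOmega.TwoGen.eq_top_of_mul_stable N hN1 hNρ fun K hK => ?_
    refine subring_eq_top hF hω hgen K ?_
    rw [ρ1] at hK
    have := pow_mem hK (Fintype.card F - 2)
    have h2c : 2 ≤ Fintype.card F := Fintype.one_lt_card
    have e : δ⁻¹ ^ (Fintype.card F - 2) = δ := by
      have h1 := FiniteField.pow_card_sub_one_eq_one δ⁻¹ (inv_ne_zero hδ0)
      rw [show Fintype.card F - 1 = Fintype.card F - 2 + 1 by omega, pow_succ] at h1
      rwa [mul_inv_eq_one₀ hδ0] at h1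
    rwa [e] at this
  have hall : ∀ (j : ℕ) (a : F), a • y (1 + (j : Fin (k + 3))) ∈ M hF HP H := by
    intro j
    induction j with
    | zero => intro a; rw [Nat.cast_zero, add_zero]; exact hline1 a
    | succ j ih =>
      intro a
      have := hSH _ (ih ((c (1 + (j : Fin (k + 3))))⁻¹ * a))
      rwa [actS, mul_inv_cancel_left₀ (hc _), add_assoc, ← Nat.cast_succ] at this
  have hW : ∀ x, InW q e f x → x ∈ M hF HP H := fun x hx => by
    rw [hspan x hx]
    refine sum_mem fun i _ => ?_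
    have := hall (i - 1 : Fin (k + 3)).val (hm q x (y i))
    rwa [Fin.cast_val_eq_self, add_sub_cancel] at this
  exact top_of_all hF HP h32 (hy 0) (by rw [hon, if_pos rfl]) hW (hy i0) hc0 hbH hμe hge

end big

section small

variable {y z : Fin n → F}

/-- Dimensions three and four. -/
theorem gen_small (hq : 3 ≤ q) (hy : InW q e f y) (hy1 : hm q y y = 1) (hz : InW q e f z)
    (hzy : hm q z y = 0)
    (hspan : ∀ x, InW q e f x → x = hm q x y • y + hm q x z • z) :
    ∃ a b : S n F q, Subgroup.closure ({a, b} : Set (S n F q)) = ⊤ := by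
  obtain ⟨κ, hκ0, hκ⟩ := exists_skew_ne_zero hF
  obtain ⟨ω, hω, hgen⟩ := exists_prim hF
  set t : F := (ω : F)
  have ht0 : t ≠ 0 := ω.ne_zero
  have hpow : ∀ i j, i < (q + 1) * (q - 1) → j < (q + 1) * (q - 1) → t ^ i = t ^ j → i = j := fun i j hi hj h =>
    pow_injOn_Iio_orderOf (x := ω) (Set.mem_Iio.2 (hω.symm ▸ hi)) (Set.mem_Iio.2 (hω.symm ▸ hj))
      (Units.ext (by rw [Units.val_pow_eq_pow_val, Units.val_pow_eq_pow_val]; exact h))
  have hQ : (q + 1) * (q - 1) + 1 = q * q := by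
    obtain ⟨r, rfl⟩ : ∃ r, q = r + 1 := ⟨q - 1, by omega⟩
    simp only [Nat.add_sub_cancel]; ring
  have hper : t ^ ((q + 1) * (q - 1)) = 1 := by
    show (ω : F) ^ _ = 1
    rw [← Units.val_pow_eq_pow_val, ← hω, pow_orderOf_eq_one, Units.val_one]
  have hqq : 3 * q ≤ q * q := Nat.mul_le_mul_right q hq
  obtain ⟨s, hs, hsy, hsz⟩ := exists_torus hF HP hy hy1 ht0
  have hsz' := hsz z hz hzy
  set g := E hF e f κ
  have hge := E_apply_e hF HP hκ hκ0
  have hgf := E_apply_f hF HP hκ hκ0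
  set s' := g * s * g⁻¹
  have s'g : ∀ x, mat s' *ᵥ (mat g *ᵥ x) = mat g *ᵥ (mat s *ᵥ x) := fun x => by
    rw [mulVec_mulVec, ← mat_mul, inv_mul_cancel_right, mat_mul, ← mulVec_mulVec]
  have htq : ((t ^ q)⁻¹) ^ q = t⁻¹ := by rw [inv_pow, Herm.conj_conj hF]
  have hs' : IsLevi q e f s' (t ^ q)⁻¹ := by
    refine ⟨inv_ne_zero (pow_ne_zero _ ht0), ?_, ?_⟩
    · have := s'g f
      rw [hs.2.2, mulVec_smul, hgf, mulVec_smul, smul_smul, mul_comm, ← smul_smul] at this
      exact smul_right_injective _ hκ0 this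
    · have := s'g e
      rw [hs.2.1, mulVec_smul, hge, mulVec_smul, smul_smul, mul_comm, ← smul_smul] at this
      rw [htq, inv_inv]
      exact smul_right_injective _ (neg_ne_zero.2 (inv_ne_zero hκ0)) this
  have s'w : ∀ {x : Fin n → F} {l : F}, InW q e f x → mat s *ᵥ x = l • x → mat s' *ᵥ x = l • x := by
    intro x l hx hl
    have := s'g x
    rwa [E_apply_w hF HP hκ hκ0 hx, hl, mulVec_smul, E_apply_w hF HP hκ hκ0 hx] at this
  have hsz1 : mat s *ᵥ z = (1 : F) • z := by rw [hsz', one_smul]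
  set η : F := t ^ q * t⁻¹ with hη
  set cy : F := t ^ q * η
  set cz : F := t ^ q
  have acts : ∀ (a b : F), act q s t (a • y + b • z) = (cy * a) • y + (cz * b) • z := fun a b => by
    rw [act, mulVec_add, mulVec_smul, mulVec_smul, hsy, hsz1]
    module
  have acts' : ∀ (a b : F), act q s' (t ^ q)⁻¹ (a • y + b • z) = (t⁻¹ * η * a) • y + (t⁻¹ * b) • z := fun a b => by
    rw [act, htq, mulVec_add, mulVec_smul, mulVec_smul, s'w hy hsy, s'w hz hsz1]
    module
  have hcomm : Commute s s' := by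
    refine commute_of_eigen hF HP hs.2.1 hs.2.2 hs'.2.1 hs'.2.2 fun x hx => ?_
    rw [hspan x hx]
    simp only [mulVec_add, mulVec_smul, hsy, hsz1, s'w hy hsy, s'w hz hsz1]
  have hW0 : InW q e f ((1 : F) • y + (1 : F) • z) := (hy.smul _).add (hz.smul _)
  set x0 := (1 : F) • y + (1 : F) • z with hx0
  obtain ⟨c0, hc0⟩ := exists_cond hF x0
  refine ⟨s, U hF e x0 c0 * g, ?_⟩
  set H := Subgroup.closure ({s, U hF e x0 c0 * g} : Set (S n F q))
  have hsH : s ∈ H := Subgroup.subset_closure (Set.mem_insert _ _)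
  have hbH : U hF e x0 c0 * g ∈ H := Subgroup.subset_closure (Set.mem_insert_of_mem _ rfl)
  obtain ⟨ci, hci, ei⟩ := U_inv hF HP hW0 hc0
  have hny : InW q e f (-x0) := by simpa using (InW.zero (q := q) e f).sub hW0
  obtain ⟨c2, hc2, hW2, e2⟩ := levi_swap hF HP hs' hny hci
  set w := x0 + act q s' (t ^ q)⁻¹ (-x0) with hwdef
  have hw : InW q e f w := hW0.add hW2
  obtain ⟨cw, hcw, ew⟩ : ∃ cw, Cond q w cw ∧ U hF e w cw * s' ∈ H := by
    refine ⟨_, hc0.mul hF hc2, ?_⟩
    rw [← U_mul hF HP hW0 hW2 hc0 hc2]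
    have hh := mul_mem (mul_mem hbH hsH) (inv_mem hbH)
    rw [show U hF e x0 c0 * g * s * (U hF e x0 c0 * g)⁻¹ =
      U hF e x0 c0 * (s' * (U hF e x0 c0)⁻¹) by simp only [s']; group, ei, e2, ← mul_assoc] at hh
    exact hh
  have h0 : U hF e (0 : Fin n → F) 0 * s ∈ H := by
    rwa [U_zero_eq_T hF HP (Skew.zero hF), T_zero hF HP.ee, one_mul]
  have hx1 := comm_mem hF HP hs hs' hcomm (InW.zero e f) (Cond.zero hF) hw hcw h0 ew
  have hw' : w = (1 - t⁻¹ * η) • y + (1 - t⁻¹) • z := by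
    have : -x0 = (-1 : F) • y + (-1 : F) • z := by rw [hx0]; module
    rw [hwdef, this, acts', hx0]
    module
  set a := (cy - 1) * (1 - t⁻¹ * η) with ha
  set b := (cz - 1) * (1 - t⁻¹) with hb
  have hx : a • y + b • z ∈ M hF HP H := by
    have e0 : act q s' (t ^ q)⁻¹ (0 : Fin n → F) = 0 := by simp [act]
    rw [e0, hw', acts] at hx1
    convert hx1 using 1
    module
  have hSH : ∀ x ∈ M hF HP H, act q s t x ∈ M hF HP H := fun x hx => act_mem' hF HP hs hsH hx
  have hSH' : ∀ x ∈ M hF HP H, act q s' (t ^ q)⁻¹ x ∈ M hF HP H := fun x hx => act_mem hF HP hw hcw hs' ew hx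
  have hSi : ∀ x ∈ M hF HP H, act q s⁻¹ t⁻¹ x ∈ M hF HP H := fun x hx =>
    act_mem' hF HP (levi_inv hs) (inv_mem hsH) hx
  have actsi : ∀ (u v : F), act q s⁻¹ t⁻¹ (u • y + v • z) = (cy⁻¹ * u) • y + (cz⁻¹ * v) • z := fun u v => by
    have hcy : cy ≠ 0 := by simp [cy, η, ht0]
    have hcz : cz ≠ 0 := by simp [cz, ht0]
    have h1 : act q s t ((cy⁻¹ * u) • y + (cz⁻¹ * v) • z) = u • y + v • z := by
      rw [acts, mul_inv_cancel_left₀ hcy, mul_inv_cancel_left₀ hcz]
    rw [← h1, act, act, mulVec_smul, smul_smul, ← mul_pow, inv_mul_cancel₀ ht0, one_pow, one_smul,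
      mulVec_inv_cancel]
  set ν : F := (t ^ (q + 1))⁻¹
  have hν : ∀ x ∈ M hF HP H, InW q e f x → ν • x ∈ M hF HP H := fun x hx hxW => by
    have h := hSi _ (hSH' _ hx)
    rw [hspan x hxW, acts', actsi] at h
    rw [hspan x hxW]
    convert h using 1
    simp only [ν, cy, cz, η]
    match_scalars <;> field_simp <;> ring
  have hfixed : ∀ r : F, r ^ q = r → ∀ x ∈ M hF HP H, r • x ∈ M hF HP H := by
    intro r hr x hx
    rcases eq_or_ne r 0 with rfl | hr0
    · rw [zero_smul]; exact zero_mem _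
    obtain ⟨i, hi⟩ := hgen (Units.mk0 r hr0)⁻¹
    have h1 : (Units.mk0 r hr0)⁻¹ ^ (q - 1) = 1 := by
      rw [inv_pow, inv_eq_one]
      refine Units.ext ?_
      rw [Units.val_pow_eq_pow_val, Units.val_mk0, Units.val_one]
      refine mul_right_cancel₀ hr0 ?_
      rw [← pow_succ, show q - 1 + 1 = q by omega, one_mul, hr]
    rw [← hi, ← pow_mul] at h1
    have h2 := orderOf_dvd_of_pow_eq_one h1
    rw [hω] at h2
    obtain ⟨j, hj⟩ := Nat.dvd_of_mul_dvd_mul_right (show 0 < q - 1 by omega) h2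
    have hrν : r = ν ^ j := by
      have := congrArg Units.val hi
      rw [Units.val_pow_eq_pow_val, Units.val_inv_eq_inv_val, Units.val_mk0, hj, pow_mul] at this
      rw [show ν ^ j = ((t ^ (q + 1)) ^ j)⁻¹ from inv_pow _ _, this, inv_inv]
    subst hrν
    clear hr hr0 hi h1 h2 hj
    induction j with
    | zero => rwa [pow_zero, one_smul]
    | succ j ih =>
      rw [pow_succ', mul_smul]
      exact hν _ ih ih.1
  -- exponents
  have ez : cz ^ q ≠ cz := by
    show (t ^ q) ^ q ≠ t ^ q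
    rw [Herm.conj_conj hF]
    intro h
    have := hpow 1 q (by nlinarith) (by nlinarith) (by rw [pow_one]; exact h)
    omega
  have ecy : cy = t ^ (2 * q - 1) := by
    show t ^ q * (t ^ q * t⁻¹) = _
    rw [← mul_assoc, ← pow_add, mul_inv_eq_iff_eq_mul₀ ht0, ← pow_succ]
    congr 1; omega
  have ey : cy ^ q ≠ cy := by
    rw [ecy]
    intro h
    have h1 : t ^ (3 * (q - 1)) = 1 := by
      have e1 : (2 * q - 1) * q + 3 * (q - 1) = 2 * q - 1 + 2 * ((q + 1) * (q - 1)) := by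
        obtain ⟨r, rfl⟩ : ∃ r, q = r + 1 := ⟨q - 1, by omega⟩
        rw [show 2 * (r + 1) - 1 = 2 * r + 1 by omega, Nat.add_sub_cancel]; ring
      have := congrArg (t ^ ·) e1
      rw [pow_add, pow_mul t (2 * q - 1) q, h, pow_add, mul_comm 2 ((q + 1) * (q - 1)), pow_mul t _ 2, hper, one_pow]
        at this
      exact mul_left_cancel₀ (pow_ne_zero _ ht0) this
    have := hpow (3 * (q - 1)) 0 (Nat.mul_lt_mul_of_pos_right (by omega) (by omega)) (by nlinarith)
      (by rw [h1, pow_zero])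
    omega
  have hne1 : cy ≠ 1 := fun h => ey (by rw [h, one_pow])
  have hzne1 : cz ≠ 1 := fun h => ez (by rw [h, one_pow])
  have hy'1 : t⁻¹ * η ≠ 1 := fun h => by
    have h' : t ^ q = t ^ 2 := by
      simp only [η] at h
      field_simp at h
      exact h
    have := hpow q 2 (by nlinarith) (by nlinarith) h'
    omega
  have hz'1 : t⁻¹ ≠ 1 := fun h => by
    have := hpow 1 0 (by nlinarith) (by nlinarith) (by rw [pow_one, pow_zero, ← inv_eq_one.1 h])
    omega
  have hyz : cy ≠ cz ∧ cy ≠ cz ^ q := by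
    refine ⟨fun h => ?_, fun h => ?_⟩
    · rw [ecy] at h
      have := hpow (2 * q - 1) q (by omega) (by omega) h
      omega
    · rw [ecy, show cz ^ q = t from Herm.conj_conj hF t] at h
      have := hpow (2 * q - 1) 1 (by omega) (by omega) (by rw [pow_one]; exact h)
      omega
  have ha0 : a ≠ 0 := mul_ne_zero (sub_ne_zero.2 hne1) (sub_ne_zero.2 (Ne.symm hy'1))
  have hb0 : b ≠ 0 := mul_ne_zero (sub_ne_zero.2 hzne1) (sub_ne_zero.2 (Ne.symm hz'1))
  -- lines
  have line : ∀ (v : Fin n → F) (c γ : F), γ ≠ 0 → γ • v ∈ M hF HP H → c ^ q ≠ c →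
      (∀ u : F, u • v ∈ M hF HP H → (c * u) • v ∈ M hF HP H) → ∀ u : F, u • v ∈ M hF HP H := by
    intro v c γ hγ hv hc hst u
    obtain ⟨r, r', hr, hr', e'⟩ := exists_fixed_decomp hF hc (u / γ)
    have := add_mem (hfixed r hr _ hv) (hfixed r' hr' _ (hst _ hv))
    rw [smul_smul, smul_smul, ← add_smul, show r * γ + r' * (c * γ) = (r + r' * c) * γ by ring, ← e',
      div_mul_cancel₀ _ hγ] at this
    exact this
  have hcy' : ∀ u : F, u • y ∈ M hF HP H → (cy * u) • y ∈ M hF HP H := fun u hu => by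
    have := hSH _ hu
    rwa [show u • y = u • y + (0 : F) • z by simp, acts, mul_zero, zero_smul, add_zero] at this
  have hcz' : ∀ u : F, u • z ∈ M hF HP H → (cz * u) • z ∈ M hF HP H := fun u hu => by
    have := hSH _ hu
    rwa [show u • z = (0 : F) • y + u • z by simp, acts, mul_zero, zero_smul, zero_add] at this
  have hyM : ((cy - cz) * (cy - cz ^ q) * a) • y ∈ M hF HP H := by
    have h1 := hSH _ hx
    have h2 := hSH _ h1
    rw [acts] at h1
    rw [acts, acts] at h2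
    have hs1 : (cz + cz ^ q) ^ q = cz + cz ^ q := by
      rw [Herm.conj_add hF, Herm.conj_conj hF, add_comm]
    have hs2 : (cz * cz ^ q) ^ q = cz * cz ^ q := norm_fixed' hF cz
    have := add_mem (sub_mem h2 (hfixed _ hs1 _ h1)) (hfixed _ hs2 _ hx)
    convert this using 1
    module
  have hYline := line y cy _ (mul_ne_zero (mul_ne_zero (sub_ne_zero.2 hyz.1) (sub_ne_zero.2 hyz.2)) ha0) hyM ey hcy'
  have hZline := line z cz b hb0 (by simpa using sub_mem hx (hYline a)) ez hcz'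
  refine top_of_all hF HP (Or.inl hq) hy hy1 (fun x hx => ?_) hW0 hc0 hbH (neg_ne_zero.2 (inv_ne_zero hκ0)) hge
  rw [hspan x hx]
  exact add_mem (hYline _) (hZline _)

end small

end Cfsg.Agent.Lib.Classical.UnitaryTwoGen
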